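import Mathlib
import Cfsg.Agent.TECH.Pet.A

/-!
# Action lemmas for operators of prime order, and the rank two set-up
-/

set_option autoImplicit false
set_option linter.all false

open Cfsg CL.MSS CL.BG CL.SF Subgroup
open scoped commutatorElement

namespace CL.Pet

universe u
variable {X : Type u} [Group X] [Finite X]
variable {r p q t : ℕ} {A G H K L M N P Q B C D E S T U V W Y : Subgroup X}

/-- Frobenius action with trivial contribution of the fixed points. -/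
theorem LF (hB : (#|B|).Prime) (hBK : B ≤ 𝐍(K)) (hK : K ⊓ 𝐂(B) = ⊥) (hKM : K ≤ 𝐍(M))
    (hBM : B ≤ 𝐍(M)) (hs : Group.IsSolvable M) (hMK : (#|M|).Coprime #|K|)
    (hMB : (#|M|).Coprime #|B|) (h : M ⊓ 𝐂(B) ≤ 𝐂(K)) : K ≤ 𝐂(M) := by
  have h1 := (Frobenius_Wielandt_fixpoint' hBK (fun x hx h1 => by
    rw [← cent_zpowers, ← eq_zpowers_of_card_prime hB hx h1, hK]) hKM hBM hs hMK hMB).1
  have h2 : M ⊓ 𝐂(K ⊔ B) = M ⊓ 𝐂(B) := by
    rw [cent_sup]
    exact le_antisymm (inf_le_inf_left _ inf_le_right)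
      (le_inf inf_le_left (le_inf h inf_le_right))
  rw [h2] at h1
  have h3 := Nat.eq_of_mul_eq_mul_left (pow_pos (card_pos' _) _) h1
  exact cent_symm (eq_of_le_of_card_le (inf_le_left : M ⊓ 𝐂(K) ≤ M) h3.le ▸ inf_le_right)

/-- Coprime operators trivial on all invariant minimal factors are trivial. -/
theorem cent_of_factors [Fact q.Prime] (hU : IsPGroup q U) (hD : D ≤ 𝐍(U)) (hY : Y ≤ D)
    (hq : ¬ q ∣ #|Y|) (h : ∀ V M : Subgroup X, V ≤ U → D ≤ 𝐍(V) → M < V → D ≤ 𝐍(M) → V ≤ 𝐍(M) →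
      MinNormalIn (V /ₛ M) (D /ₛ M) → Y /ₛ M ≤ 𝐂(V /ₛ M)) : Y ≤ 𝐂(U) := by
  have key : ∀ V : Subgroup X, V ≤ U → D ≤ 𝐍(V) → V ≤ 𝐂(Y) := fun V => by
    induction V using subgroup_induction with
    | h V ih =>
    intro hV hDV
    by_cases e : V ≤ ⊥
    · exact e.trans bot_le
    obtain ⟨M, -, h2, h3, h4, h5⟩ := exists_max_inv (hU.to_le hV) hDV (le_norm_bot D) e
    refine coprime_le_centralizer_of_trivial_on_factors Y V M (hY.trans h3)
      (coprime_of_isPGroup_of_not_dvd (hU.to_le (h2.le.trans hV)) hq).symm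
      (ih M h2 (h2.le.trans hV) h3) ?_
    exact (quo_cents_iff h4 (hY.trans h3)).1 (cent_symm (h V M hV hDV h2 h3 h4 h5))
  exact cent_symm (key U le_rfl hD)

theorem L0irr [hq : Fact q.Prime] (hB : (#|B|).Prime) (hBE : B ≤ 𝐍(E)) (hE : Odd #|E|)
    (hEB : (#|E|).Coprime #|B|) (hU : IsPGroup q U) (hm : MinNormalIn U (E ⊔ B))
    (hqE : ¬ q ∣ #|E|) (hqB : ¬ q ∣ #|B|) (h : U ⊓ 𝐂(B) ≤ 𝐂(E)) : ⁅E, B⁆ ≤ 𝐂(U) := by
  rcases min_cent hm (sup_le (le_norm_self E) hBE) with e | e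
  · rw [commutator_comm]
    exact odd_prime_sdprod_abelem_cent1 hq.out hBE hE hEB hB (min_elemAb hm hU)
      (le_sup_left.trans hm.2.1) (le_sup_right.trans hm.2.1) hqE hqB
      (eq_bot_iff.2 ((le_inf inf_le_left h).trans e.le))
  · exact (commutator_le_left_of_normalizes hBE).trans (cent_symm e)

/-- The odd order case. -/
theorem L0 [hq : Fact q.Prime] (hB : (#|B|).Prime) (hBE : B ≤ 𝐍(E)) (hE : Odd #|E|)
    (hEB : (#|E|).Coprime #|B|) (hU : IsPGroup q U) (hEU : E ≤ 𝐍(U)) (hBU : B ≤ 𝐍(U))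
    (hqE : ¬ q ∣ #|E|) (hqB : ¬ q ∣ #|B|) (h : U ⊓ 𝐂(B) ≤ 𝐂(E)) : ⁅E, B⁆ ≤ 𝐂(U) := by
  refine cent_of_factors hU (sup_le hEU hBU) (comm_le_of_le le_sup_left le_sup_right)
    (fun hd => hqE (hd.trans (card_dvd_of_le (commutator_le_left_of_normalizes hBE))))
    fun V M hV hD hlt hM hVM hm => ?_
  have hEM := le_sup_left.trans hM
  have hBM := le_sup_right.trans hM
  have hc : (#|M|).Coprime #|B| :=
    coprime_of_isPGroup_of_not_dvd (hU.to_le (hlt.le.trans hV)) hqB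
  have hcB : #|B /ₛ M| = #|B| := card_quo_of_inf_eq_bot hBM (BG.inf_eq_bot_of_coprime hc)
  rw [quo_sup hEM hBM] at hm
  rw [quo_commutator hEM hBM]
  haveI := isCyclic_of_card_prime hB
  refine L0irr (hcB ▸ hB) (quo_norms M hBE) (odd_quo M hE) (coprime_quo_quo M hEB)
    (isPGroup_quo (hU.to_le hV) M) hm (fun hd => hqE (hd.trans (card_quo_dvd _ _)))
    (hcB ▸ hqB) ?_
  rw [← coprime_quo_cent hlt.le hBM hc (Or.inl inferInstance)]
  exact (quo_mono M ((inf_le_inf_right _ hV).trans h)).trans (quo_cents M le_rfl)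

theorem Line.prime (hB : Line r A B) (h : Hyp r A G) : (#|B|).Prime := hB.card ▸ h.prime

namespace Hyp

theorem ne_r [hp : Fact p.Prime] (h : Hyp r A G) (hP : P ≤ G) (hpP : IsPGroup p P)
    (hB : B ≤ A) : P = ⊥ ∨ ¬ p ∣ #|B| := by
  by_cases e : P = ⊥
  · exact Or.inl e
  · refine Or.inr fun hd => ?_
    have := Nat.eq_one_of_dvd_coprimes (h.co hB hP) hd (dvd_card_of_isPGroup_le hpP e le_rfl)
    exact hp.out.one_lt.ne' this

theorem star_le (h : Hyp r A G) (hC : C ≤ A) (hB : B ≤ A) (hA : A ≤ C ⊔ B) (hP : P ≤ 𝐂(B)) :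
    ⁅P, A⁆ ≤ ⁅P, C⁆ := by
  refine (commutator_mono le_rfl hA).trans ?_
  rw [commutator_comm, comm_sup_cent (cent_symm hP) (hB.trans (h.normB hC)), commutator_comm]

theorem fix_le (hA : A ≤ C ⊔ B) (hP : P ≤ 𝐂(B)) : P ⊓ 𝐂(C) ≤ P ⊓ 𝐂(A) := by
  refine le_inf inf_le_left (le_trans ?_ (centS hA))
  rw [cent_sup]
  exact le_inf inf_le_right (inf_le_left.trans hP)

/-- The cyclic case, local form. -/
theorem R1loc [Fact p.Prime] [Fact q.Prime] (h : Hyp r A G) (hC : Line r A C) (hB : B ≤ A)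
    (hA : A ≤ C ⊔ B) (hpq : p ≠ q) (hP : Inv A G P) (hp : IsPGroup p P) (hQ : Inv A G Q)
    (hq : IsPGroup q Q) (hn : P ≤ 𝐍(Q)) (hPB : P ≤ 𝐂(B)) (hQB : Q ≤ 𝐂(B)) : ⁅P, A⁆ ≤ 𝐂(Q) := by
  have h1 : Q ⊓ 𝐂(C) ≤ 𝐂(P) := (fix_le hA hQB).trans
    (h.fix_le_cent hP hp hQ.le (not_dvd_pp hpq hq) hn)
  by_cases e : p = 2
  · subst e
    refine (commutator_le_left_of_normalizes hP.norm).trans (LF (hC.prime h)
      (hC.le.trans hP.norm) ?_ hn (hC.le.trans hQ.norm) (isSolvable_of_isPGroup hq)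
      (cop_pp hpq hp hq).symm (h.co hC.le hQ.le).symm h1)
    exact eq_bot_iff.2 ((fix_le hA hPB).trans (h.two_fix hP.le hp).le)
  · rcases h.ne_r hQ.le hq hC.le with e' | e'
    · rw [e', cent_bot]; exact le_top
    exact (h.star_le hC.le hB hA hPB).trans (L0 (hC.prime h) (hC.le.trans hP.norm) (odd_pp e hp)
      (h.co hC.le hP.le).symm hq hn (hC.le.trans hQ.norm) (not_dvd_pp hpq.symm hp) e' h1)

/-- The cyclic case: `[P, A] ≤ O_p(H)`. -/
theorem R1 [Fact p.Prime] (h : Hyp r A G) (hC : Line r A C) (hB : B ≤ A)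
    (hA : A ≤ C ⊔ B) (hH : Inv A G H) (hs : Group.IsSolvable H) (hHB : H ≤ 𝐂(B))
    (hP : Inv A H P) (hp : IsPGroup p P) : ⁅P, A⁆ ≤ 𝐎[p](H) := by
  have hPA : ⁅P, A⁆ ≤ P := commutator_le_left_of_normalizes hP.norm
  refine le_core_of_forall (hPA.trans hP.le) fun q _ hqp => le_core'_of_cent hs (hPA.trans hP.le)
    (not_dvd_pp hqp (hp.to_le hPA)) ?_
  have h1 := h.sub hH
  have hN := h1.top.core {q}ᶜ
  have hHN := pcore_norm {q}ᶜ H
  have h2 := h1.quo hN hHN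
  rw [quo_commutator (hP.le.trans hHN) hN.norm]
  refine h2.R1loc (h1.line_quo hN hC) (quo_mono _ hB) ?_ hqp.symm (hP.quo _) (isPGroup_quo hp _)
    (h2.top.core _) (pcore_isPGroup q _) ((quo_mono _ hP.le).trans (pcore_norm _ _))
    (quo_cents _ (hP.le.trans hHB)) ((pcore_sub _ _).trans (quo_cents _ hHB))
  rw [← quo_sup (hC.le.trans hN.norm) (hB.trans hN.norm)]
  exact quo_mono _ hA

end Hyp

/-- The rank two case. -/
structure Hyp2 (r : ℕ) (A G : Subgroup X) : Prop extends Hyp r A G where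
  card : #|A| = r ^ 2

namespace Hyp2

theorem sub (h : Hyp2 r A G) (hH : Inv A G H) : Hyp2 r A H := ⟨h.toHyp.sub hH, h.card⟩

theorem quo (h : Hyp2 r A G) (hN : Inv A G N) (hG : G ≤ 𝐍(N)) : Hyp2 r (A /ₛ N) (G /ₛ N) :=
  ⟨h.toHyp.quo hN hG, (h.card_quo hN le_rfl).trans h.card⟩

theorem line_zpowers (h : Hyp2 r A G) {a : X} (ha : a ∈ A) (h1 : a ≠ 1) :
    Line r A (zpowers a) :=
  haveI := Fact.mk h.prime
  ⟨zpowers_le.2 ha, by rw [Nat.card_zpowers]; exact orderOf_eq_prime (h.ea.2 a ha) h1⟩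

theorem not_le (h : Hyp2 r A G) (hB : Line r A B) : ¬ A ≤ B := fun e => by
  have h1 := Nat.le_of_dvd (card_pos' _) (card_dvd_of_le e)
  rw [h.card, hB.card, sq] at h1
  have := h.prime.one_lt
  nlinarith

theorem le_sup (h : Hyp2 r A G) (hB : Line r A B) (hC : Line r A C) (hne : C ≠ B) :
    A ≤ C ⊔ B := by
  have hle : C ⊔ B ≤ A := sup_le hC.le hB.le
  have hlt : B < C ⊔ B := lt_of_le_of_ne le_sup_right fun e => hne
    (eq_of_le_of_card_le (e ▸ le_sup_left) (by rw [hB.card, hC.card]))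
  have h2 := CL.card_lt_of_lt hlt
  obtain ⟨k, hk, hk'⟩ := (Nat.dvd_prime_pow h.prime).1 (h.card ▸ card_dvd_of_le hle)
  rw [hB.card, hk'] at h2
  have h3 := (Nat.pow_lt_pow_iff_right h.prime.one_lt (n := 1) (m := k)).1 (by simpa using h2)
  exact (eq_of_le_of_card_le hle (by rw [hk', h.card, show k = 2 by omega])).ge

theorem exists_third (h : Hyp2 r A G) (hB : Line r A B) (hD : Line r A D) :
    ∃ C, Line r A C ∧ C ≠ B ∧ C ≠ D := by
  have key : ∀ a ∈ A, a ∉ B → a ∉ D → ∃ C, Line r A C ∧ C ≠ B ∧ C ≠ D := fun a ha h1 h2 =>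
    ⟨_, h.line_zpowers ha (fun e => h1 (e ▸ one_mem B)), fun e => h1 (e ▸ mem_zpowers a),
      fun e => h2 (e ▸ mem_zpowers a)⟩
  obtain ⟨x, hx, hxB⟩ := SetLike.not_le_iff_exists.1 (h.not_le hB)
  obtain ⟨y, hy, hyD⟩ := SetLike.not_le_iff_exists.1 (h.not_le hD)
  by_cases h1 : x ∈ D
  · by_cases h2 : y ∈ B
    · exact key (x * y) (mul_mem hx hy) (fun e => hxB ((mul_mem_cancel_right h2).1 e))
        fun e => hyD ((mul_mem_cancel_left h1).1 e)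
    · exact key y hy h2 hyD
  · exact key x hx hxB h1

theorem gen (h : Hyp2 r A G) (hK : Inv A G K) (hW : ∀ B, Line r A B → K ⊓ 𝐂(B) ≤ W) : K ≤ W := by
  haveI := h.ea.1
  refine coprime_le_of_forall_centralizer_le A K W (fun hc => ?_) hK.norm (h.co le_rfl hK.le)
    fun a ha h1 => cent_zpowers a ▸ hW _ (h.line_zpowers ha h1)
  obtain ⟨⟨a, ha⟩, hg⟩ := hc.exists_generator
  have h2 : A ≤ zpowers a := fun x hx => by
    obtain ⟨k, hk⟩ := hg ⟨x, hx⟩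
    exact ⟨k, congrArg Subtype.val hk⟩
  by_cases e : a = 1
  · subst e
    have h3 := Nat.le_of_dvd (card_pos' _) (card_dvd_of_le h2)
    rw [h.card, zpowers_one_eq_bot, card_bot, sq] at h3
    have := h.prime.one_lt
    nlinarith
  · exact h.not_le (h.line_zpowers ha e) h2

theorem exists_line (h : Hyp2 r A G) : ∃ B, Line r A B := by
  obtain ⟨B, h1, h2⟩ := exists_card_eq_prime_of_dvd h.prime
    (show r ∣ #|A| from h.card ▸ dvd_pow_self r two_ne_zero)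
  exact ⟨B, h1, h2⟩

theorem lift_line (h : Hyp2 r A G) (hN : Inv A G N) {Z : Subgroup (CosetOf N)}
    (hZ : Line r (A /ₛ N) Z) : ∃ B, Line r A B ∧ B /ₛ N = Z := by
  have e : (A ⊓ coquo N Z) /ₛ N = Z := by rw [quo_inf_coquo, inf_of_le_right hZ.le]
  exact ⟨_, ⟨inf_le_left, by rw [← h.card_quo hN inf_le_left, e, hZ.card]⟩, e⟩

theorem fix_fix (h : Hyp2 r A G) (hB : Line r A B) (hC : Line r A C) (hne : C ≠ B)
    (hP : P ≤ 𝐂(B)) : P ⊓ 𝐂(C) ≤ P ⊓ 𝐂(A) := Hyp.fix_le (h.le_sup hB hC hne) hP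

/-- `[P, D]` is generated by fixed points of the other lines. -/
theorem comm_gen [Fact p.Prime] (h : Hyp2 r A G) (hP : Inv A G P) (hp : IsPGroup p P)
    (hD : Line r A D) (hW : ∀ C, Line r A C → C ≠ D → P ⊓ 𝐂(C) ≤ W) : ⁅P, D⁆ ≤ W := by
  have hY := h.star hP hD.le
  have hYP : ⁅P, D⁆ ≤ P := commutator_le_left_of_normalizes (hD.le.trans hP.norm)
  refine (le_of_sup_der1 (hp.to_le hYP) (inf_le_left : ⁅P, D⁆ ⊓ W ≤ _)
    (h.gen hY fun C hC => ?_)).trans inf_le_right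
  by_cases e : C = D
  · subst e
    exact (inf_cent_le_der1 (hD.le.trans hY.norm) (h.co hD.le hY.le) (h.sol hD.le)
      (comm_le_comm_comm (hD.le.trans hP.norm) (h.co hD.le hP.le) (h.sol hD.le))).trans
      le_sup_right
  · exact (le_inf inf_le_left ((inf_le_inf_right _ hYP).trans (hW C hC e))).trans le_sup_left

/-- `[P_B, A]` and `[Q_B, A]` commute. -/
theorem a_comm [Fact p.Prime] [Fact q.Prime] (h : Hyp2 r A G) (hB : Line r A B)
    (hs : Group.IsSolvable ↥(G ⊓ 𝐂(B))) (hpq : p ≠ q) (hP : Inv A G P) (hp : IsPGroup p P)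
    (hQ : Inv A G Q) (hq : IsPGroup q Q) : ⁅P ⊓ 𝐂(B), A⁆ ≤ 𝐂(⁅Q ⊓ 𝐂(B), A⁆) := by
  obtain ⟨C, hC, hne, -⟩ := h.exists_third hB hB
  have key : ∀ (p : ℕ) [Fact p.Prime] (P : Subgroup X), Inv A G P → IsPGroup p P →
      ⁅P ⊓ 𝐂(B), A⁆ ≤ 𝐎[p](G ⊓ 𝐂(B)) := fun p _ P hP hp =>
    h.R1 hC hB.le (h.le_sup hB hC hne) (h.fix h.top hB.le) hs inf_le_right
      ((h.fix hP hB.le).sub (inf_le_inf_right _ hP.le)) hp.to_inf_left
  exact (key p P hP hp).trans ((pcore_cent_pcore (Set.disjoint_singleton.2 hpq) _).trans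
    (centS (key q Q hQ hq)))

theorem eq_star (h : Hyp2 r A G) (hE : Inv A G E) (h0 : E ⊓ 𝐂(A) = ⊥) : E ≤ ⁅E, A⁆ := by
  have := le_comm_sup_cent hE.norm (h.co le_rfl hE.le) (h.sol le_rfl)
  rwa [h0, sup_bot_eq] at this

/-- LF for a group centralizing one line and without fixed points. -/
theorem LF2 (h : Hyp2 r A G) (hB : Line r A B) (hC : Line r A C) (hne : C ≠ B) (hK : Inv A G K)
    (hKB : K ≤ 𝐂(B)) (h0 : K ⊓ 𝐂(A) = ⊥) (hM : Inv A G M) (hKM : K ≤ 𝐍(M))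
    (hs : Group.IsSolvable M) (hMK : (#|M|).Coprime #|K|) (hc : M ⊓ 𝐂(C) ≤ 𝐂(K)) : K ≤ 𝐂(M) :=
  LF (hC.prime h.toHyp) (hC.le.trans hK.norm) (eq_bot_iff.2 ((h.fix_fix hB hC hne hKB).trans h0.le))
    hKM (hC.le.trans hM.norm) hs hMK (h.co hC.le hM.le).symm hc

theorem L2irr [Fact t.Prime] [Fact q.Prime] (h : Hyp2 r A G) (htq : t ≠ q) (hT : Inv A G T)
    (ht : IsPGroup t T) (h0 : T ⊓ 𝐂(A) = ⊥) (hV : Inv A G V) (hq : IsPGroup q V)
    (hm : MinNormalIn V (T ⊔ A)) : ∃ D, Line r A D ∧ ⁅T, D⁆ ≤ 𝐂(V) := by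
  have hTV : T ≤ 𝐍(V) := le_sup_left.trans hm.2.1
  by_cases e : T ≤ 𝐂(V)
  · obtain ⟨D, hD⟩ := h.exists_line
    exact ⟨D, hD, (commutator_le_left_of_normalizes (hD.le.trans hT.norm)).trans e⟩
  obtain ⟨Z, -, ⟨z1, z2, z3, z4⟩, z5⟩ := exists_minimal_le_of_wellFoundedLT
    (fun Z : Subgroup X => Z ≤ T ∧ T ≤ 𝐍(Z) ∧ A ≤ 𝐍(Z) ∧ ¬ Z ≤ 𝐂(V)) T
    ⟨le_rfl, le_norm_self T, hT.norm, e⟩
  have hZT : ⁅Z, T⁆ ≤ 𝐂(V) := by
    by_contra hn
    have hlt := commutator_lt_of_isPGroup (ht.to_le z1) ht z2 fun e => z4 (e ▸ bot_le)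
    exact hlt.not_ge (z5 ⟨hlt.le.trans z1, comm_norm_right _ _,
      le_normalizer_commutator z3 hT.norm, hn⟩ hlt.le)
  have hZ : Inv A G Z := ⟨z1.trans hT.le, z3⟩
  obtain ⟨D, hD, hW⟩ : ∃ D, Line r A D ∧ ¬ Z ⊓ 𝐂(D) ≤ 𝐂(V) := by
    by_contra hn
    push Not at hn
    exact z4 (h.gen hZ hn)
  have hWi := h.fix hZ hD.le
  have hWT : Z ⊓ 𝐂(D) ≤ T := inf_le_left.trans z1
  have hT0 : T ≤ 𝐍(T ⊓ 𝐂(V)) := (normalIn_subcent hTV).norm
  have hK : T ⊔ A ≤ 𝐍((Z ⊓ 𝐂(D)) ⊔ (T ⊓ 𝐂(V))) := by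
    refine sup_le (le_norm_of_comm_le (le_trans ?_ le_sup_right))
      (hWi.sup (hT.inf_cent hV.norm)).norm
    exact comm_sup_le (le_inf (comm_le_of_le hWT le_rfl)
      ((commutator_mono inf_le_left le_rfl).trans hZT))
      (commutator_le_left_of_normalizes hT0) (hWT.trans hT0) (le_norm_self _)
  have hVW : V ⊓ 𝐂(Z ⊓ 𝐂(D)) = ⊥ := by
    rcases min_cent hm hK with e | e
    · rw [eq_bot_iff, ← e, cent_sup]
      exact le_inf inf_le_left (le_inf inf_le_right (inf_le_left.trans (cent_symm inf_le_right)))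
    · exact absurd (le_sup_left.trans (cent_symm e)) hW
  have hVA : V ⊓ 𝐂(A) ≤ 𝐂(T) := h.fix_le_cent hT ht hV.le (not_dvd_pp htq hq) hTV
  have hVD : V ⊓ 𝐂(D) = ⊥ := by
    obtain ⟨C, hC, hne, -⟩ := h.exists_third hD hD
    rw [eq_bot_iff, ← hVW]
    refine le_inf inf_le_left (cent_symm (h.LF2 hD hC hne hWi inf_le_right
      (eq_bot_iff.2 ((inf_le_inf_right _ hWT).trans h0.le)) (h.fix hV hD.le)
      (le_normalizer_inf (hWT.trans hTV) (le_normalizer_centralizer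
        (le_norm_of_le_cent inf_le_right))) (isSolvable_of_isPGroup hq.to_inf_left)
      (cop_pp htq (ht.to_le hWT) hq.to_inf_left).symm ?_))
    exact (h.fix_fix hD hC hne inf_le_right).trans (((inf_le_inf_right _ inf_le_left).trans
      hVA).trans (centS hWT))
  refine ⟨D, hD, h.comm_gen hT ht hD fun C hC hne => ?_⟩
  exact h.LF2 hC hD hne.symm (h.fix hT hC.le) inf_le_right
    (eq_bot_iff.2 ((inf_le_inf_right _ inf_le_left).trans h0.le)) hV (inf_le_left.trans hTV)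
    (isSolvable_of_isPGroup hq) (cop_pp htq ht.to_inf_left hq).symm (hVD.le.trans bot_le)

/-- `U` is generated by the centralizers of the `[T, D]`. -/
theorem L2 [Fact t.Prime] [Fact q.Prime] (h : Hyp2 r A G) (htq : t ≠ q) (hT : Inv A G T)
    (ht : IsPGroup t T) (h0 : T ⊓ 𝐂(A) = ⊥) (hU : Inv A G U) (hq : IsPGroup q U)
    (hTU : T ≤ 𝐍(U)) (hW : T ⊔ A ≤ 𝐍(W)) (hUW : ∀ D, Line r A D → U ⊓ 𝐂(⁅T, D⁆) ≤ W) :
    U ≤ W := by
  by_contra hn
  obtain ⟨M, h1, h2, h3, h4, h5⟩ := exists_max_inv hq (sup_le hTU hU.norm) hW hn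
  have hTM := le_sup_left.trans h3
  have hAM := le_sup_right.trans h3
  have g := h.sub (hU.sup hT)
  have hM : Inv A (U ⊔ T) M := ⟨h2.le.trans le_sup_left, hAM⟩
  have hT' : Inv A (U ⊔ T) T := hT.sub le_sup_right
  rw [quo_sup hTM hAM] at h5
  obtain ⟨Z, hZ, hc⟩ := (g.quo hM (sup_le h4 hTM)).L2irr htq (hT'.quo M) (isPGroup_quo ht M)
    (by rw [← g.quo_fix hM le_rfl hT', h0, quo_bot]) ((hU.sub le_sup_left).quo M)
    (isPGroup_quo hq M) h5
  obtain ⟨D, hD, rfl⟩ := g.lift_line hM hZ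
  have hY : ⁅T, D⁆ ≤ T := commutator_le_left_of_normalizes (hD.le.trans hT.norm)
  rw [← quo_commutator hTM (hD.le.trans hAM)] at hc
  have h6 := coprime_quo_cent h2.le (hY.trans hTM)
    (cop_pp htq (ht.to_le hY) (hq.to_le h2.le)).symm (Or.inl (isSolvable_of_isPGroup (ht.to_le hY)))
  rw [inf_of_le_left (cent_symm hc), quo_eq_bot_of_le ((le_inf inf_le_left (hUW D hD)).trans h1)]
    at h6
  exact h5.1 h6.symm

/-- The closure trick. -/
theorem CT [Fact q.Prime] (h : Hyp2 r A G) (hq2 : q ≠ 2) (hU : Inv A G U) (hq : IsPGroup q U)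
    (hS : Inv A G S) (h2 : IsPGroup 2 S) (hB : Line r A B) (hSB : S ≤ 𝐂(B)) (hSU : S ≤ 𝐍(U))
    (hUS : U ≤ ⁅U, S⁆) (hC : Line r A C) (hne : C ≠ B) (hSW : S ≤ 𝐍(W)) (hAW : A ≤ 𝐍(W))
    (hW : ⁅U ⊓ 𝐂(C), A⁆ ≤ W) : U ≤ W := by
  haveI : Fact (Nat.Prime 2) := ⟨Nat.prime_two⟩
  by_contra hn
  obtain ⟨M, h1, h3, h4, h5, -⟩ := exists_max_inv hq (sup_le hSU hU.norm) (sup_le hSW hAW) hn
  have hSM := le_sup_left.trans h4
  have hM : Inv A G M := ⟨h3.le.trans hU.le, le_sup_right.trans h4⟩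
  have hUC := h.fix hU hC.le
  refine h3.not_ge (hUS.trans ((quo_cents_iff h5 hSM).1 (cent_symm ?_)))
  refine LF ((h.line_quo hM hC).card ▸ h.prime) (quo_norms M (hC.le.trans hS.norm)) ?_
    (quo_norms M hSU) (quo_norms M (hC.le.trans hU.norm))
    (isSolvable_of_isPGroup (isPGroup_quo hq M)) (coprime_quo_quo M (cop_pp hq2 hq h2))
    (coprime_quo_quo M (h.co hC.le hU.le).symm) ?_
  · rw [← h.quo_fix hM hC.le hS]
    exact quo_eq_bot_of_le (((h.fix_fix hB hC hne hSB).trans (h.two_fix hS.le h2).le).trans bot_le)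
  · rw [← h.quo_fix hM hC.le hU]
    refine (quo_mono M (le_comm_sup_cent hUC.norm (h.co le_rfl hUC.le) (h.sol le_rfl))).trans ?_
    have h6 : ⁅U ⊓ 𝐂(C), A⁆ ≤ M := (le_inf
      ((commutator_le_left_of_normalizes hUC.norm).trans inf_le_left) hW).trans h1
    rw [quo_sup_left_of_le h6 ((inf_le_left.trans inf_le_left).trans h5)]
    exact quo_cents M ((inf_le_inf_right _ inf_le_left).trans
      (h.fix_le_cent hS h2 hU.le (not_dvd_pp hq2.symm hq) hSU))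

end Hyp2

end CL.Pet
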