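import Mathlib
import Cfsg.Agent.TECH.Pet.B
import Cfsg.Agent.FGS.FpfTwo

/-!
# No towers `2, p, q` in the rank two case; `2`-length one
-/

set_option autoImplicit false
set_option linter.all false

open Cfsg CL.MSS CL.BG CL.SF Subgroup
open scoped commutatorElement

namespace CL.Pet

universe u
variable {X : Type u} [Group X] [Finite X]
variable {r p q t : ℕ} {A G H K L M N P Q B C D E S T U V W Y : Subgroup X}

/-- Ward's theorem. -/
theorem Hyp2.ward (h : Hyp2 r A G) (hs : Group.IsSolvable G) (h0 : G ⊓ 𝐂(A) = ⊥) :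
    Group.IsNilpotent (FH.nres G) := by
  letI : MulDistribMulAction A G :=
    MulDistribMulAction.compHom G (G.normalizerMonoidHom.comp (inclusion h.norm))
  have h2 : FH.res 2 (⊤ : Subgroup G) = ⊥ := by
    refine FH.res_two_eq_bot_of_card (A := A) hs h.prime h.prime (by rw [h.card, sq])
      (h.co le_rfl le_rfl) fun g hg => ?_
    have : (g : X) ∈ G ⊓ 𝐂(A) := by
      refine ⟨g.2, fun a ha => ?_⟩
      have h1 : a * g * a⁻¹ = g := congrArg Subtype.val (hg ⟨a, ha⟩)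
      exact mul_inv_eq_iff_eq_mul.mp h1
    rw [h0, mem_bot] at this
    exact Subtype.ext this
  rw [FH.res_top_eq_bot_iff] at h2
  exact FH.nres_eq_bot_iff.1 h2

/-- A potential tower. -/
structure Tri (r : ℕ) (A G B : Subgroup X) (p q : ℕ) (E P U : Subgroup X) : Prop where
  h : Hyp2 r A G
  hB : Line r A B
  p2 : p ≠ 2
  pq : p ≠ q
  iE : Inv A G E
  pE : IsPGroup 2 E
  EB : E ≤ 𝐂(B)
  iP : Inv A G P
  pP : IsPGroup p P
  iU : Inv A G U
  pU : IsPGroup q U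
  EP : E ≤ 𝐍(P)
  EU : E ≤ 𝐍(U)
  PU : P ≤ 𝐍(U)

namespace Tri

theorem quo (T : Tri r A G B p q E P U) (hV : Inv A G V) (hVU : V ≤ U) (hEV : E ≤ 𝐍(V))
    (hPV : P ≤ 𝐍(V)) (hN : N ≤ V ⊔ (P ⊔ E)) (hA : A ≤ 𝐍(N)) (hn : V ⊔ (P ⊔ E) ≤ 𝐍(N)) :
    Tri r (A /ₛ N) ((V ⊔ (P ⊔ E)) /ₛ N) (B /ₛ N) p q (E /ₛ N) (P /ₛ N) (V /ₛ N) :=
  have g := T.h.sub (hV.sup (T.iP.sup T.iE))
  { h := g.quo ⟨hN, hA⟩ hn
    hB := g.line_quo ⟨hN, hA⟩ T.hB
    p2 := T.p2
    pq := T.pq
    iE := (T.iE.sub (le_sup_right.trans le_sup_right)).quo N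
    pE := isPGroup_quo T.pE N
    EB := quo_cents N T.EB
    iP := (T.iP.sub (le_sup_left.trans le_sup_right)).quo N
    pP := isPGroup_quo T.pP N
    iU := (hV.sub le_sup_left).quo N
    pU := isPGroup_quo (T.pU.to_le hVU) N
    EP := quo_norms N T.EP
    EU := quo_norms N hEV
    PU := quo_norms N hPV }

theorem core [Fact p.Prime] [hq : Fact q.Prime] (T : Tri r A G B p q E P U)
    (hm : MinNormalIn U ((P ⊔ E) ⊔ A)) (hf : P ⊓ 𝐂(U) = ⊥)
    (hmin : ∀ P₁ < P, A ≤ 𝐍(P₁) → E ≤ 𝐍(P₁) → ⁅P₁, E⁆ = ⊥) : ⁅P, E⁆ = ⊥ := by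
  haveI : Fact (Nat.Prime 2) := ⟨Nat.prime_two⟩
  obtain ⟨h, hB, p2, pq, iE, pE, EB, iP, pP, iU, pU, EP, EU, PU⟩ := T
  by_contra hne
  have cEP := cop_pp p2.symm pE pP
  have sE : Group.IsSolvable E := isSolvable_of_isPGroup pE
  have hP1 : P ≠ ⊥ := fun e => hne (by rw [e, commutator_bot_left])
  have hPE : P ≤ ⁅P, E⁆ := by
    by_contra hn
    have hlt : ⁅P, E⁆ < P := lt_of_le_of_ne (commutator_le_left_of_normalizes EP)
      fun e => hn e.ge
    exact hne (eq_bot_iff.2 ((comm_le_comm_comm EP cEP sE).trans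
      (hmin _ hlt (iP.comm iE).norm (comm_norm_right _ _)).le))
  have iD := iP.comm iP
  have hDE : ⁅⁅P, P⁆, E⁆ = ⊥ := hmin _ (commutator_lt_of_isPGroup pP pP (le_norm_self P) hP1)
    iD.norm (EP.trans (norm_le_norm_der1 P))
  have hDP : P ≤ 𝐂(⁅P, P⁆) := by
    refine hPE.trans (comm_eq_bot_iff.1 (three_subgroup ?_ ?_))
    · rw [commutator_comm E, hDE, commutator_bot_left]
    · exact eq_bot_iff.2 ((commutator_mono ((normalIn_der1 P).comm_le le_rfl) le_rfl).trans hDE.le)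
  have hCE : P ⊓ 𝐂(E) ≤ ⁅P, P⁆ := inf_cent_le_der1 EP cEP sE hPE
  have hUP : U ⊓ 𝐂(P) = ⊥ := (min_cent hm (sup_le (sup_le (le_norm_self P) EP) iP.norm)).resolve_right
    fun e => hP1 (eq_bot_iff.2 ((le_inf le_rfl (cent_symm e)).trans hf.le))
  have hUA : U ⊓ 𝐂(A) = ⊥ := eq_bot_iff.2 ((le_inf inf_le_left
    (h.fix_le_cent iP pP iU.le (not_dvd_pp pq pU) PU)).trans hUP.le)
  have hEA := h.two_fix iE.le pE
  have hPA : P ⊓ 𝐂(A) ≤ 𝐂(E) := h.fix_le_cent iE pE iP.le (not_dvd_pp p2.symm pP) EP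
  have hUC : ∀ C, Line r A C → U ⊓ 𝐂(C) ≠ ⊥ := fun C hC e => by
    have h1 : P ≤ 𝐂(C) := by
      refine cent_symm (comm_eq_bot_iff.1 (eq_bot_iff.2 (le_trans (le_inf
        (commutator_le_right_of_normalizes (hC.le.trans iP.norm)) ?_) hf.le)))
      exact odd_prime_sdprod_abelem_cent1 hq.out (hC.le.trans iP.norm) (odd_pp p2 pP)
        (h.co hC.le iP.le).symm (hC.prime h.toHyp) (min_elemAb hm pU) PU (hC.le.trans iU.norm)
        (not_dvd_pp pq.symm pP) ((h.ne_r iU.le pU hC.le).resolve_left hm.1) e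
    by_cases e' : C = B
    · subst e'
      obtain ⟨C', hC', hne', -⟩ := h.exists_third hC hC
      exact hne (comm_eq_bot_iff.2 (cent_symm (h.LF2 hC hC' hne' iE EB hEA iP EP
        (isSolvable_of_isPGroup pP) cEP.symm ((h.fix_fix hC hC' hne' h1).trans hPA))))
    · have h2 := le_comm_sup_cent (hC.le.trans iE.norm) (h.co hC.le iE.le) (h.sol hC.le)
      rw [eq_bot_iff.2 ((h.fix_fix hB hC e' EB).trans hEA.le), sup_bot_eq] at h2
      refine hne (comm_eq_bot_iff.2 (cent_symm (h2.trans (comm_eq_bot_iff.1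
        (three_subgroup ?_ ?_)))))
      · rw [comm_eq_bot_iff.2 (cent_symm h1), commutator_bot_left]
      · exact comm_eq_bot_iff.2 ((commutator_le_left_of_normalizes EP).trans h1)
  have iS : ∀ C, Line r A C → Inv A G ⁅P ⊓ 𝐂(C), A⁆ := fun C hC => h.star (h.fix iP hC.le) le_rfl
  have hDS : ∀ C, Line r A C → ⁅P, P⁆ ⊓ ⁅P ⊓ 𝐂(C), A⁆ = ⊥ := fun C hC => by
    obtain ⟨C', hC', hne', -⟩ := h.exists_third hC hC
    have h1 : ⁅P ⊓ 𝐂(C), A⁆ ≤ 𝐂(U ⊓ 𝐂(C)) := h.R1loc hC' hC.le (h.le_sup hC hC' hne') pq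
      (h.fix iP hC.le) pP.to_inf_left (h.fix iU hC.le) pU.to_inf_left
      (le_normalizer_inf (inf_le_left.trans PU) (le_normalizer_centralizer
        (le_norm_of_le_cent inf_le_right))) inf_le_right inf_le_right
    rcases min_cent hm (K := ⁅P, P⁆ ⊓ ⁅P ⊓ 𝐂(C), A⁆) (sup_le (le_norm_of_le_cent (le_trans
      (sup_le hDP (cent_symm (comm_eq_bot_iff.1 hDE))) (centS inf_le_left)))
      (iD.inf (iS C hC).norm).norm) with e | e
    · exact absurd (eq_bot_iff.2 ((le_inf inf_le_left ((cent_symm h1).trans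
        (centS inf_le_right))).trans e.le)) (hUC C hC)
    · exact eq_bot_iff.2 ((le_inf (inf_le_left.trans (der1_le P)) (cent_symm e)).trans hf.le)
  have hDA : ⁅P, P⁆ ≤ 𝐂(A) := h.gen iD fun C hC => by
    have i := h.fix iD hC.le
    refine (le_comm_sup_cent i.norm (h.co le_rfl i.le) (h.sol le_rfl)).trans
      (sup_le (le_trans ?_ ((hDS C hC).le.trans bot_le)) inf_le_right)
    exact le_inf ((commutator_le_left_of_normalizes i.norm).trans inf_le_left)
      (commutator_mono (inf_le_inf_right _ (der1_le P)) le_rfl)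
  have hZ : P ⊓ 𝐂(A) ≤ 𝐂(P) := ((le_inf inf_le_left hPA).trans hCE).trans (cent_symm hDP)
  have red : ∀ C, Line r A C → ∀ Y ≤ P, ⁅P ⊓ 𝐂(C), A⁆ ≤ 𝐂(Y) → P ⊓ 𝐂(C) ≤ 𝐂(Y) :=
    fun C hC Y hY e => by
      have i := h.fix iP hC.le
      exact (le_comm_sup_cent i.norm (h.co le_rfl i.le) (h.sol le_rfl)).trans
        (sup_le e (((inf_le_inf_right _ inf_le_left).trans hZ).trans (centS hY)))
  have hab : P ≤ 𝐂(P) := by
    refine h.gen iP fun C hC => cent_symm (h.gen iP fun C' hC' => red C' hC' _ inf_le_left ?_)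
    have hS : ⁅P ⊓ 𝐂(C'), A⁆ ≤ P :=
      (commutator_le_left_of_normalizes (h.fix iP hC'.le).norm).trans inf_le_left
    by_cases e : C = C'
    · subst e
      refine cent_symm (red C hC _ hS (comm_eq_bot_iff.1 (eq_bot_iff.2 ?_)))
      exact (le_inf (der1S hS) (der1_le _)).trans (hDS C hC).le
    · refine (h.star_le hC.le hC'.le (h.le_sup hC' hC e) inf_le_right).trans
        (comm_eq_bot_iff.1 (three_subgroup ?_ ?_))
      · rw [comm_eq_bot_iff.2 (cent_symm inf_le_right), commutator_bot_left]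
      · exact comm_eq_bot_iff.2 (((commutator_mono inf_le_left inf_le_left).trans hDA).trans
          (centS hC.le))
  have hP0 : P ⊓ 𝐂(A) = ⊥ := eq_bot_iff.2 (((le_inf inf_le_left hPA).trans hCE).trans
    (comm_eq_bot_iff.2 hab).le)
  have iH := iU.sup (iP.sup iE)
  have sPE : Group.IsSolvable ↥(P ⊔ E) := by
    rw [sup_comm]
    exact isSolvable_sup_of_le_normalizer EP sE (isSolvable_of_isPGroup pP)
  have sH : Group.IsSolvable ↥(U ⊔ (P ⊔ E)) := by
    rw [sup_comm]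
    exact isSolvable_sup_of_le_normalizer (sup_le PU EU) sPE (isSolvable_of_isPGroup pU)
  have hn := (h.sub iH).ward sH (eq_bot_iff.2 (by
    refine (sup_inf_cent_le (sup_le PU EU) iU.norm (iP.sup iE).norm (h.co le_rfl iU.le)
      (h.sol le_rfl)).trans (sup_le hUA.le ?_)
    exact (sup_inf_cent_le EP iP.norm iE.norm (h.co le_rfl iP.le) (h.sol le_rfl)).trans
      (sup_le hP0.le hEA.le)))
  have h1 : P ≤ FH.nres (U ⊔ (P ⊔ E)) := FH.le_nres_of_le_commutator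
    (le_sup_left.trans le_sup_right)
    (hPE.trans (commutator_mono le_rfl (le_sup_right.trans le_sup_right)))
  have h2 : U ≤ FH.nres (U ⊔ (P ⊔ E)) := by
    have := le_comm_sup_cent PU (cop_pp pq pP pU) (isSolvable_of_isPGroup pP)
    rw [hUP, sup_bot_eq] at this
    exact FH.le_nres_of_le_commutator le_sup_left
      (this.trans (commutator_mono le_rfl (le_sup_left.trans le_sup_right)))
  exact hP1 (eq_bot_iff.2 ((le_inf le_rfl (sub_nilpotent_cent2 hn h1 h2 (cop_pp pq pP pU))).trans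
    hf.le))

end Tri

theorem T3aux (r p q : ℕ) [Fact p.Prime] [Fact q.Prime] (n : ℕ) : ∀ (X : Type u) [Group X]
    [Finite X] (A G B E P U : Subgroup X), Tri r A G B p q E P U → #|P| < n → ⁅P, E⁆ ≤ 𝐂(U) := by
  induction n with
  | zero => intro X _ _ A G B E P U _ h; omega
  | succ n ih =>
  have step : ∀ (X : Type u) [Group X] [Finite X] (A G B E P U : Subgroup X),
      Tri r A G B p q E P U → #|P| < n + 1 → MinNormalIn U ((P ⊔ E) ⊔ A) → ⁅P, E⁆ ≤ 𝐂(U) := by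
    intro X _ _ A G B E P U T hn hm
    have hY : ⁅P, E⁆ ≤ P := commutator_le_left_of_normalizes T.EP
    by_cases hf : P ⊓ 𝐂(U) = ⊥
    · rw [T.core hm hf fun P₁ hlt h1 h2 => ?_]
      · exact bot_le
      refine eq_bot_iff.2 (le_trans (le_inf ((commutator_le_left_of_normalizes h2).trans hlt.le)
        (ih X A G B E P₁ U { T with
          iP := ⟨hlt.le.trans T.iP.le, h1⟩
          pP := T.pP.to_le hlt.le
          EP := h2
          PU := hlt.le.trans T.PU } ?_)) hf.le)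
      have := CL.card_lt_of_lt hlt
      omega
    · have hP : P ≤ 𝐍(P ⊓ 𝐂(U)) := (normalIn_subcent T.PU).norm
      have hE : E ≤ 𝐍(P ⊓ 𝐂(U)) := le_normalizer_inf T.EP (le_normalizer_centralizer T.EU)
      have hU : U ≤ 𝐍(P ⊓ 𝐂(U)) := le_norm_of_le_cent (cent_symm inf_le_right)
      have h1 := ih _ _ _ _ _ _ _ (T.quo T.iU le_rfl T.EU T.PU
        (inf_le_left.trans (le_sup_left.trans le_sup_right)) (T.iP.inf_cent T.iU.norm).norm
        (sup_le hU (sup_le hP hE))) (by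
          have := card_quo_lt hP (by rwa [inf_of_le_left inf_le_left])
          omega)
      rw [← quo_commutator hP hE, quo_cents_iff (hY.trans hP) hU] at h1
      refine comm_eq_bot_iff.1 (eq_bot_iff.2 (le_trans (le_inf (h1.trans inf_le_left)
        (commutator_le_right_of_normalizes (hY.trans T.PU))) ?_))
      exact (BG.inf_eq_bot_of_coprime (cop_pp T.pq T.pP T.pU)).le
  intro X _ _ A G B E P U T hn
  have hY : ⁅P, E⁆ ≤ P := commutator_le_left_of_normalizes T.EP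
  refine cent_of_factors T.pU (sup_le (sup_le T.PU T.EU) T.iU.norm)
    (hY.trans (le_sup_left.trans le_sup_left)) (not_dvd_pp T.pq.symm (T.pP.to_le hY))
    fun V M hV hD hlt hM hVM hm => ?_
  have hPE := le_sup_left.trans hM
  have hP := le_sup_left.trans hPE
  have hE := le_sup_right.trans hPE
  have hA := le_sup_right.trans hM
  rw [quo_sup hPE hA, quo_sup hP hE] at hm
  rw [quo_commutator hP hE]
  exact step _ _ _ _ _ _ _ (T.quo ⟨hV.trans T.iU.le, le_sup_right.trans hD⟩ hV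
    ((le_sup_right.trans le_sup_left).trans hD) ((le_sup_left.trans le_sup_left).trans hD)
    (hlt.le.trans le_sup_left) hA (sup_le hVM hPE)) ((card_quo_le P M).trans_lt hn) hm

namespace Hyp2

theorem T3 [Fact p.Prime] [Fact q.Prime] (h : Hyp2 r A G) (p2 : p ≠ 2) (pq : p ≠ q)
    (iE : Inv A G E) (pE : IsPGroup 2 E) (iP : Inv A G P) (pP : IsPGroup p P) (iU : Inv A G U)
    (pU : IsPGroup q U) (EP : E ≤ 𝐍(P)) (EU : E ≤ 𝐍(U)) (PU : P ≤ 𝐍(U)) : ⁅P, E⁆ ≤ 𝐂(U) := by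
  have hP : P ≤ 𝐍(P ⊓ 𝐂(U)) := (normalIn_subcent PU).norm
  have hE : E ≤ 𝐍(P ⊓ 𝐂(U)) := le_normalizer_inf EP (le_normalizer_centralizer EU)
  rw [commutator_comm]
  refine ((le_coquo_cent_iff hE hP).1 (h.gen iE fun B hB => ?_)).trans inf_le_right
  rw [le_coquo_cent_iff (inf_le_left.trans hE) hP, commutator_comm]
  exact le_inf (commutator_le_left_of_normalizes (inf_le_left.trans EP))
    (T3aux r p q _ X A G B _ P U ⟨h, hB, p2, pq, h.fix iE hB.le, pE.to_inf_left, inf_le_right, iP,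
      pP, iU, pU, inf_le_left.trans EP, inf_le_left.trans EU, PU⟩ (Nat.lt_succ_self _))

theorem T3' [Fact p.Prime] (h : Hyp2 r A G) (p2 : p ≠ 2) (hH : Inv A G H)
    (hs : Group.IsSolvable H) (iE : Inv A H E) (pE : IsPGroup 2 E) (iP : Inv A H P)
    (pP : IsPGroup p P) (EP : E ≤ 𝐍(P)) : ⁅P, E⁆ ≤ 𝐎[p](H) := by
  have hY : ⁅P, E⁆ ≤ P := commutator_le_left_of_normalizes EP
  refine le_core_of_forall (hY.trans iP.le) fun q _ hqp => le_core'_of_cent hs (hY.trans iP.le)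
    (not_dvd_pp hqp (pP.to_le hY)) ?_
  have h1 := h.sub hH
  have hN := h1.top.core {q}ᶜ
  have hHN := pcore_norm {q}ᶜ H
  have h2 := h1.quo hN hHN
  rw [quo_commutator (iP.le.trans hHN) (iE.le.trans hHN)]
  exact h2.T3 p2 hqp.symm (iE.quo _) (isPGroup_quo pE _) (iP.quo _) (isPGroup_quo pP _)
    (h2.top.core _) (pcore_isPGroup q _) (quo_norms _ EP)
    ((quo_mono _ iE.le).trans (pcore_norm _ _)) ((quo_mono _ iP.le).trans (pcore_norm _ _))

theorem two_closed (h : Hyp2 r A G) (hs : Group.IsSolvable G) (h0 : 𝐎'[2](G) = ⊥)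
    (iS : Inv A G S) (pS : IsPGroup 2 S) : S ≤ 𝐎[2](G) := by
  haveI : Fact (Nat.Prime 2) := ⟨Nat.prime_two⟩
  have iQ := h.top.core {2}
  have hGQ := pcore_norm {2} G
  have pQ := pcore_isPGroup 2 G
  rw [← quo_eq_bot_iff (iS.le.trans hGQ)]
  refine eq_bot_of_cent_cores (solvable_quo hs _) (piCoreOf_quo_piCoreOf {2} G)
    (quo_mono _ iS.le) (piGrp_of_isPGroup (isPGroup_quo pS _) rfl) fun q _ hq => ?_
  have hq2 : q ≠ 2 := hq
  obtain ⟨P, iP, pP, e⟩ := h.lift iQ hGQ ((h.quo iQ hGQ).top.core {q}) (pcore_isPGroup q _)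
  have hK : G ≤ 𝐍(𝐎[2](G) ⊔ P) := by
    rw [← quo_norms_iff' hGQ (iP.le.trans hGQ), e]
    exact pcore_norm _ _
  have hPK : SylIn q P (𝐎[2](G) ⊔ P) := (IsPiHallOf.of_sup_right (π := {q})
    (piGrp_compl_of_isPGroup pQ hq2.symm) (piGrp_of_isPGroup pP rfl) (iP.le.trans hGQ)).sylIn
  have hF := hPK.frattini_sup (sup_le iQ.le iP.le) hK
  have iN := h.top.inf_norm iP.norm
  have hE := (h.sylIn 2 iN).quo (N := 𝐎[2](G)) (inf_le_right.trans (iN.le.trans hGQ))
  have iE := (h.inv_syl 2).inf iN.norm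
  have e1 : (G ⊓ 𝐍(P)) /ₛ 𝐎[2](G) = G /ₛ 𝐎[2](G) := by
    rw [sup_assoc, sup_eq_right.2 (le_inf iP.le (le_norm_self P))] at hF
    rw [← quo_sup_left (iN.le.trans hGQ), hF]
  rw [e1] at hE
  have e2 := hE.max _ (isPGroup_quo (h.pg_syl 2) _) (quo_mono _ inf_le_left)
    (quo_mono _ (h.inv_syl 2).le)
  refine (quo_mono _ (le_syl iS pS)).trans ?_
  rw [e2, ← e, quo_cents_iff (iE.le.trans hGQ) (iP.le.trans hGQ), commutator_comm]
  refine le_trans (le_inf (iP.comm iE).le ?_) (cent_pcore_le hs h0)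
  exact h.T3 hq2 hq2 iE (h.pg_syl 2).to_inf_left iP pP iQ pQ (inf_le_right.trans inf_le_right)
    (iE.le.trans hGQ) (iP.le.trans hGQ)

/-- `2`-length at most one. -/
theorem two_len (h : Hyp2 r A G) (hH : Inv A G H) (hs : Group.IsSolvable H) :
    H ≤ 𝐎'[2](H) ⊔ (H ⊓ 𝐍(syl A G 2 ⊓ H)) := by
  haveI : Fact (Nat.Prime 2) := ⟨Nat.prime_two⟩
  have h1 := h.sub hH
  have hN := h1.top.core {2}ᶜ
  have hHN := pcore_norm {2}ᶜ H
  have hS := h.sylIn 2 hH
  have iS : Inv A H (syl A G 2 ⊓ H) := ((h.inv_syl 2).inf hH.norm).sub inf_le_right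
  have h2 := (h1.quo hN hHN).two_closed (solvable_quo hs _) (piCoreOf_quo_piCoreOf {2}ᶜ H)
    (iS.quo _) (isPGroup_quo hS.pgroup _)
  have h3 := le_antisymm h2 (hS.quo (hS.le.trans hHN)).core_le
  have hK : H ≤ 𝐍(𝐎'[2](H) ⊔ (syl A G 2 ⊓ H)) := by
    rw [← quo_norms_iff' hHN (hS.le.trans hHN), h3]
    exact pcore_norm _ _
  have hF := (hS.of_le le_sup_right (sup_le hN.le hS.le)).frattini_sup (sup_le hN.le hS.le) hK
  refine hF.ge.trans (sup_le (sup_le le_sup_left ?_) le_sup_right)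
  exact (le_inf hS.le (le_norm_self _)).trans le_sup_right

end Hyp2

end CL.Pet
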